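import Cfsg.Agent.H663.Hol.Defs
import Cfsg.Agent.GH.L3S.ModelL33
import Cfsg.Agent.S0813
import Cfsg.Agent.ClassicalGeometry.PSL2Basic

/-!
# S5175, `StGrpB`: the group `Aut(PSL₃(3))` (helper984)

Elements of `Aut(SL₃(3))` of the form `conj P` and `conj P * itr`, `itr` the inverse transpose.
-/

set_option autoImplicit false

namespace Cfsg.Agent.H984.Hol

open Matrix Subgroup
open Cfsg.Agent.H663.Hol
open Cfsg.Agent.GH.L3S.ModelL33
open Cfsg.Agent.ClassicalGeometry.AutPSL.Root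
open Cfsg.Agent.ClassicalGeometry.AutPSL.Auto

section rel

variable {G : Type*} [Group G] {r w d : G}

/-- the order of `⟨r, w, d⟩` -/
theorem card_closure (hr : orderOf r = 8) (ww : w ^ 2 = 1) (dd : d ^ 2 = 1) (wr : w * r * w⁻¹ = r⁻¹)
    (dr : d * r * d⁻¹ = r ^ 5) (wd : w * d = d * w) : Nat.card (closure ({r, w, d} : Set G)) = 32 := by
  have hr8 : r ^ 8 = 1 := by rw [← hr]; exact pow_orderOf_eq_one r
  have hwi : w⁻¹ = w := inv_eq_of_mul_eq_one_left (by rw [← pow_two, ww])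
  have hdi : d⁻¹ = d := inv_eq_of_mul_eq_one_left (by rw [← pow_two, dd])
  have hw1 : w * r = r ^ 7 * w := by
    have h1 : r⁻¹ = r ^ 7 := inv_eq_of_mul_eq_one_left (by rw [← pow_succ, hr8])
    rw [← h1, ← wr]; group
  have hd1 : d * r = r ^ 5 * d := by rw [← dr]; group
  have hwp : ∀ i : ℕ, w * r ^ i = r ^ (7 * i) * w := by
    intro i
    induction i with
    | zero => simp
    | succ i ih => rw [pow_succ, ← mul_assoc, ih, mul_assoc, hw1, ← mul_assoc, ← pow_add]; rfl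
  have hdp : ∀ i : ℕ, d * r ^ i = r ^ (5 * i) * d := by
    intro i
    induction i with
    | zero => simp
    | succ i ih => rw [pow_succ, ← mul_assoc, ih, mul_assoc, hd1, ← mul_assoc, ← pow_add]; rfl
  have hmod : ∀ i : ℕ, r ^ i = r ^ (i % 8) := fun i => by rw [← hr]; exact (pow_mod_orderOf r i).symm
  have hmod2 : ∀ {x : G}, x ^ 2 = 1 → ∀ i : ℕ, x ^ i = x ^ (i % 2) := fun {x} hx i => pow_eq_pow_mod i hx
  have hwd' : ∀ k : ℕ, d * w ^ k = w ^ k * d := fun k => ((show Commute w d from wd).pow_left k).eq.symm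
  let f : Fin 8 × Fin 2 × Fin 2 → G := fun x => r ^ (x.1 : ℕ) * w ^ (x.2.1 : ℕ) * d ^ (x.2.2 : ℕ)
  -- the set is everything
  have key : ∀ i j k : ℕ, r ^ i * w ^ j * d ^ k ∈ Set.range f := fun i j k =>
    ⟨(⟨i % 8, Nat.mod_lt _ (by norm_num)⟩, ⟨j % 2, Nat.mod_lt _ (by norm_num)⟩, ⟨k % 2, Nat.mod_lt _ (by norm_num)⟩), by
      change r ^ (i % 8) * w ^ (j % 2) * d ^ (k % 2) = _
      rw [← hmod, ← hmod2 ww, ← hmod2 dd]⟩
  have hrr : ∀ x ∈ Set.range f, r * x ∈ Set.range f := by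
    rintro _ ⟨⟨i, j, k⟩, rfl⟩
    have h1 : r * f (i, j, k) = r ^ ((i : ℕ) + 1) * w ^ (j : ℕ) * d ^ (k : ℕ) := by
      change r * (r ^ (i : ℕ) * w ^ (j : ℕ) * d ^ (k : ℕ)) = _
      rw [pow_succ']; simp only [mul_assoc]
    rw [h1]; exact key _ _ _
  have hww : ∀ x ∈ Set.range f, w * x ∈ Set.range f := by
    rintro _ ⟨⟨i, j, k⟩, rfl⟩
    have h1 : w * f (i, j, k) = r ^ (7 * (i : ℕ)) * w ^ ((j : ℕ) + 1) * d ^ (k : ℕ) := by
      change w * (r ^ (i : ℕ) * w ^ (j : ℕ) * d ^ (k : ℕ)) = _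
      rw [pow_succ' w, ← mul_assoc, ← mul_assoc, hwp]; simp only [mul_assoc]
    rw [h1]; exact key _ _ _
  have hdd : ∀ x ∈ Set.range f, d * x ∈ Set.range f := by
    rintro _ ⟨⟨i, j, k⟩, rfl⟩
    have h1 : d * f (i, j, k) = r ^ (5 * (i : ℕ)) * w ^ (j : ℕ) * d ^ ((k : ℕ) + 1) := by
      change d * (r ^ (i : ℕ) * w ^ (j : ℕ) * d ^ (k : ℕ)) = _
      rw [pow_succ' d, ← mul_assoc, ← mul_assoc, hdp, mul_assoc (r ^ (5 * (i : ℕ))) d, hwd']; simp only [mul_assoc]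
    rw [h1]; exact key _ _ _
  have hpow : ∀ (n : ℕ), ∀ x ∈ Set.range f, r ^ n * x ∈ Set.range f := by
    intro n
    induction n with
    | zero => intro x hx; simpa using hx
    | succ n ih => intro x hx; rw [pow_succ', mul_assoc]; exact hrr _ (ih x hx)
  have hsub : ∀ x ∈ closure ({r, w, d} : Set G), x ∈ Set.range f := by
    intro x hx
    induction hx using Subgroup.closure_induction_left with
    | one => exact ⟨(0, 0, 0), by change r ^ 0 * w ^ 0 * d ^ 0 = 1; simp⟩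
    | mul_left y hy z _ ih =>
      rcases hy with rfl | rfl | rfl
      · exact hrr _ ih
      · exact hww _ ih
      · exact hdd _ ih
    | inv_mul_cancel y hy z _ ih =>
      rcases hy with rfl | rfl | rfl
      · have h1 : y⁻¹ = y ^ 7 := inv_eq_of_mul_eq_one_left (by rw [← pow_succ, hr8])
        rw [h1]; exact hpow 7 _ ih
      · rw [hwi]; exact hww _ ih
      · rw [hdi]; exact hdd _ ih
  have hsub' : ∀ x ∈ Set.range f, x ∈ closure ({r, w, d} : Set G) := by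
    rintro _ ⟨⟨i, j, k⟩, rfl⟩
    have h1 : r ∈ closure ({r, w, d} : Set G) := subset_closure (by simp)
    have h2 : w ∈ closure ({r, w, d} : Set G) := subset_closure (by simp)
    have h3 : d ∈ closure ({r, w, d} : Set G) := subset_closure (by simp)
    exact mul_mem (mul_mem (pow_mem h1 _) (pow_mem h2 _)) (pow_mem h3 _)
  -- injectivity
  have hact : ∀ (x : Fin 8 × Fin 2 × Fin 2), f x * r = r ^ (7 ^ (x.2.1 : ℕ) * 5 ^ (x.2.2 : ℕ)) * f x := by
    rintro ⟨i, j, k⟩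
    have e1 : ∀ k : ℕ, d ^ k * r = r ^ (5 ^ k) * d ^ k := by
      intro k
      induction k with
      | zero => simp
      | succ k ih =>
        rw [pow_succ', mul_assoc, ih, ← mul_assoc, hdp, mul_assoc, ← pow_succ' d, ← pow_succ']
    have e2 : ∀ (j m : ℕ), w ^ j * r ^ m = r ^ (7 ^ j * m) * w ^ j := by
      intro j
      induction j with
      | zero => intro m; simp
      | succ j ih =>
        intro m
        rw [pow_succ', mul_assoc, ih, ← mul_assoc, hwp, mul_assoc, ← pow_succ' w, ← mul_assoc, ← pow_succ']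
    change r ^ (i : ℕ) * w ^ (j : ℕ) * d ^ (k : ℕ) * r = r ^ (7 ^ (j : ℕ) * 5 ^ (k : ℕ)) * (r ^ (i : ℕ) * w ^ (j : ℕ) * d ^ (k : ℕ))
    rw [mul_assoc, e1, ← mul_assoc, mul_assoc (r ^ (i : ℕ)), e2, ← mul_assoc, ← pow_add, add_comm, pow_add]
    simp only [mul_assoc]
  have hinj : Function.Injective f := by
    rintro ⟨i, j, k⟩ ⟨i', j', k'⟩ h
    have h1 := hact (i, j, k)
    have h2 := hact (i', j', k')
    rw [← h] at h2
    rw [h1] at h2
    have h3 : r ^ (7 ^ (j : ℕ) * 5 ^ (k : ℕ)) = r ^ (7 ^ (j' : ℕ) * 5 ^ (k' : ℕ)) := mul_right_cancel h2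
    have h4 : (7 ^ (j : ℕ) * 5 ^ (k : ℕ)) % 8 = (7 ^ (j' : ℕ) * 5 ^ (k' : ℕ)) % 8 := by
      rw [pow_inj_mod, hr] at h3
      exact h3
    have h5 : ∀ j k j' k' : Fin 2, (7 ^ (j : ℕ) * 5 ^ (k : ℕ)) % 8 = (7 ^ (j' : ℕ) * 5 ^ (k' : ℕ)) % 8 →
        j = j' ∧ k = k' := by decide
    obtain ⟨rfl, rfl⟩ := h5 j k j' k' h4
    have h6 : r ^ (i : ℕ) = r ^ (i' : ℕ) := by
      have h7 : r ^ (i : ℕ) * w ^ (j : ℕ) * d ^ (k : ℕ) = r ^ (i' : ℕ) * w ^ (j : ℕ) * d ^ (k : ℕ) := h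
      exact mul_right_cancel (mul_right_cancel h7)
    rw [pow_inj_mod, hr, Nat.mod_eq_of_lt i.2, Nat.mod_eq_of_lt i'.2] at h6
    rw [Fin.ext h6]
  have hset : (closure ({r, w, d} : Set G) : Set G) = Set.range f :=
    Set.Subset.antisymm hsub hsub'
  have h8 : Nat.card (closure ({r, w, d} : Set G)) = Nat.card (Set.range f) := by
    rw [← hset]; rfl
  rw [h8, Nat.card_congr (Equiv.ofInjective f hinj).symm, Nat.card_eq_fintype_card]
  rfl

end rel

/-! ### the elements -/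

theorem detR : (!![1, 0, 1; 0, -1, 0; -1, 0, 1] : Matrix (Fin 3) (Fin 3) (ZMod 3)).det = 1 := by
  rw [Matrix.det_fin_three]; decide
theorem detR1 : (!![-1, 0, -1; 0, -1, 0; 1, 0, -1] : Matrix (Fin 3) (Fin 3) (ZMod 3)).det = 1 := by
  rw [Matrix.det_fin_three]; decide
theorem detW : (!![1, 0, 0; 0, -1, 0; 0, 0, -1] : Matrix (Fin 3) (Fin 3) (ZMod 3)).det = 1 := by
  rw [Matrix.det_fin_three]; decide
theorem detA : (!![0, 1, 0; 0, 0, 1; 1, 0, 0] : Matrix (Fin 3) (Fin 3) (ZMod 3)).det = 1 := by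
  rw [Matrix.det_fin_three]; decide
theorem detB : (!![1, 0, 0; 0, 1, 0; 1, 0, 1] : Matrix (Fin 3) (Fin 3) (ZMod 3)).det = 1 := by
  rw [Matrix.det_fin_three]; decide
theorem detB1 : (!![1, 0, -1; 0, 1, 0; 0, 0, 1] : Matrix (Fin 3) (Fin 3) (ZMod 3)).det = 1 := by
  rw [Matrix.det_fin_three]; decide

/-- the matrix of `r` -/
def R0 : S := ⟨_, detR⟩
/-- the inverse transpose of `R0` -/
def R1 : S := ⟨_, detR1⟩
/-- the matrix of `w` -/
def W0 : S := ⟨_, detW⟩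
/-- the matrix of `a` -/
def A0 : S := ⟨_, detA⟩
/-- the matrix of `b` -/
def B0 : S := ⟨_, detB⟩
/-- the inverse transpose of `B0` -/
def B1 : S := ⟨_, detB1⟩

/-- a check for the inverse transpose -/
theorem itr_eq {P P' : S} (h : P'.1ᵀ * P.1 = 1) : (itr P : S) = P' := by
  have h1 : P'.transpose * P = 1 := Subtype.ext h
  have h2 : P⁻¹ = P'.transpose := (eq_inv_of_mul_eq_one_left h1).symm
  apply Subtype.ext
  rw [coe_itr, h2]
  change (P'.1ᵀ)ᵀ = P'.1
  rw [Matrix.transpose_transpose]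

theorem itrR : (itr R0 : S) = R1 := itr_eq (by decide +kernel)
theorem itrR1 : (itr R1 : S) = R0 := itr_eq (by decide +kernel)
theorem itrW : (itr W0 : S) = W0 := itr_eq (by decide +kernel)
theorem itrA : (itr A0 : S) = A0 := itr_eq (by decide +kernel)
theorem itrB : (itr B0 : S) = B1 := itr_eq (by decide +kernel)

theorem m1 : R0 * R1 * (R0 * R1) * (R0 * R1 * (R0 * R1)) = 1 := Subtype.ext (by
  change R0.1 * R1.1 * (R0.1 * R1.1) * (R0.1 * R1.1 * (R0.1 * R1.1)) = 1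
  decide +kernel)
theorem m2 : R0 * R1 * (R0 * R1) ≠ 1 := fun h => by
  have h1 : R0.1 * R1.1 * (R0.1 * R1.1) = 1 := congrArg Subtype.val h
  revert h1
  decide +kernel
theorem m3 : W0 * W0 = 1 := Subtype.ext (by
  change W0.1 * W0.1 = 1
  decide +kernel)
theorem m4 : W0 * R0 * (W0 * R1) = 1 := Subtype.ext (by
  change W0.1 * R0.1 * (W0.1 * R1.1) = 1
  decide +kernel)
theorem m5 : R0 * R1 * (R0 * R1) * R0 = R1 := Subtype.ext (by
  change R0.1 * R1.1 * (R0.1 * R1.1) * R0.1 = R1.1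
  decide +kernel)
theorem m6 : A0 * (R0 * R1 * (R0 * R1)) = W0 * A0 := Subtype.ext (by
  change A0.1 * (R0.1 * R1.1 * (R0.1 * R1.1)) = W0.1 * A0.1
  decide +kernel)
theorem m7 : A0 * W0 = R0 * R1 * (R0 * R1) * W0 * A0 := Subtype.ext (by
  change A0.1 * W0.1 = R0.1 * R1.1 * (R0.1 * R1.1) * W0.1 * A0.1
  decide +kernel)
theorem m8 : B0 * (R0 * R1) = R1 * W0 * B0 := Subtype.ext (by
  change B0.1 * (R0.1 * R1.1) = R1.1 * W0.1 * B0.1
  decide +kernel)
theorem m9 : B0 * (R0 * W0) = B1 := Subtype.ext (by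
  change B0.1 * (R0.1 * W0.1) = B1.1
  decide +kernel)
theorem m10 : B0 = R0 * W0 * (R1 * R0) * B1 := Subtype.ext (by
  change B0.1 = R0.1 * W0.1 * (R1.1 * R0.1) * B1.1
  decide +kernel)
theorem m11 : B0 * B0 * B0 = 1 := Subtype.ext (by
  change B0.1 * B0.1 * B0.1 = 1
  decide +kernel)

/-- `r` -/
def r0 : MulAut S := MulAut.conj R0 * itr
/-- `w` -/
def w0 : MulAut S := MulAut.conj W0
/-- `d` -/
def d0 : MulAut S := itr
/-- `a` -/
def a0 : MulAut S := MulAut.conj A0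
/-- `b` -/
def b0 : MulAut S := MulAut.conj B0

theorem r0_sq : r0 * r0 = MulAut.conj (R0 * R1) := by
  unfold r0
  rw [mul_assoc, ← mul_assoc itr, itr_mul_conj, itrR, mul_assoc, itr_mul_itr, mul_one, ← map_mul]

theorem r0_four : r0 ^ 4 = MulAut.conj (R0 * R1 * (R0 * R1)) := by
  rw [show 4 = 2 * 2 by norm_num, pow_mul, pow_two r0, r0_sq, pow_two, ← map_mul]

theorem conj_inj {P : S} (h : MulAut.conj P = 1) : P = 1 := by
  apply eq_one_of_center
  intro g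
  have h1 : MulAut.conj P g = g := by rw [h]; rfl
  rw [MulAut.conj_apply, mul_inv_eq_iff_eq_mul] at h1
  exact h1

theorem order_r0 : orderOf r0 = 8 := by
  have h1 : r0 ^ 2 ^ (2 + 1) = 1 := by
    rw [show 2 ^ (2 + 1) = 4 * 2 by norm_num, pow_mul, r0_four, pow_two, ← map_mul, m1, map_one]
  have h2 : ¬ r0 ^ 2 ^ 2 = 1 := by
    rw [show 2 ^ 2 = 4 by norm_num, r0_four]
    exact fun h => m2 (conj_inj h)
  exact orderOf_eq_prime_pow h2 h1

theorem w0_sq : w0 ^ 2 = 1 := by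
  unfold w0
  rw [pow_two, ← map_mul, m3, map_one]

theorem d0_sq : d0 ^ 2 = 1 := by
  unfold d0
  rw [pow_two, itr_mul_itr]

theorem wr0 : w0 * r0 * w0⁻¹ = r0⁻¹ := by
  have h1 : w0⁻¹ = w0 := inv_eq_of_mul_eq_one_left (by rw [← pow_two, w0_sq])
  rw [h1]
  apply eq_inv_of_mul_eq_one_left
  have h2 : w0 * r0 = MulAut.conj (W0 * R0) * itr := by
    unfold w0 r0
    rw [← mul_assoc, ← map_mul]
  rw [mul_assoc, h2, mul_assoc, ← mul_assoc itr, itr_mul_conj, map_mul itr W0 R0, itrW, itrR, mul_assoc, itr_mul_itr,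
    mul_one, ← map_mul, m4, map_one]

theorem dr0 : d0 * r0 * d0⁻¹ = r0 ^ 5 := by
  have h1 : d0⁻¹ = d0 := inv_eq_of_mul_eq_one_left (by rw [← pow_two, d0_sq])
  rw [h1, pow_succ, r0_four]
  unfold d0 r0
  rw [← mul_assoc itr, itr_mul_conj, itrR, mul_assoc, mul_assoc, itr_mul_itr, mul_one, ← mul_assoc, ← map_mul, m5]

theorem wd0 : w0 * d0 = d0 * w0 := by
  unfold w0 d0
  rw [itr_mul_conj, itrW]

theorem ad0 : a0 * d0 * a0⁻¹ = d0 := by
  rw [mul_inv_eq_iff_eq_mul]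
  unfold a0 d0
  rw [itr_mul_conj, itrA]

theorem ar0 : a0 * r0 ^ 4 * a0⁻¹ = w0 := by
  rw [mul_inv_eq_iff_eq_mul, r0_four]
  unfold a0 w0
  rw [← map_mul, ← map_mul, m6]

theorem aw0 : a0 * w0 * a0⁻¹ = r0 ^ 4 * w0 := by
  rw [mul_inv_eq_iff_eq_mul, r0_four]
  unfold a0 w0
  rw [← map_mul, ← map_mul, ← map_mul, m7]

theorem rw0 : r0 * w0 = MulAut.conj (R0 * W0) * itr := by
  unfold r0 w0
  rw [mul_assoc, itr_mul_conj, itrW, ← mul_assoc, ← map_mul]

theorem b1 : b0 * r0 ^ 2 * b0⁻¹ = d0 * (r0 * w0) := by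
  rw [mul_inv_eq_iff_eq_mul, pow_two, r0_sq, rw0]
  unfold b0 d0
  rw [← mul_assoc itr, itr_mul_conj, map_mul itr, itrR, itrW, mul_assoc, mul_assoc, ← mul_assoc itr, itr_mul_itr,
    one_mul, ← map_mul, ← map_mul, m8]

theorem b2 : b0 * (r0 * w0) * b0⁻¹ = d0 := by
  rw [mul_inv_eq_iff_eq_mul, rw0]
  unfold b0 d0
  rw [← mul_assoc, ← map_mul, m9, itr_mul_conj, itrB]

theorem b3 : b0 * d0 * b0⁻¹ = r0 * w0 * r0 ^ 2 := by
  rw [mul_inv_eq_iff_eq_mul, pow_two, r0_sq, rw0]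
  unfold b0 d0
  rw [mul_assoc (MulAut.conj (R0 * W0)), itr_mul_conj, map_mul itr, itrR, itrR1, mul_assoc, mul_assoc,
    itr_mul_conj, itrB, ← mul_assoc, ← mul_assoc, ← map_mul, ← map_mul, ← m10]

theorem b_cube : b0 ^ 3 = 1 := by
  unfold b0
  rw [pow_succ, pow_two, ← map_mul, ← map_mul, m11, map_one]

/-- the order of `Aut(PSL₃(3))` -/
theorem card_aut : ∃ m : ℕ, Odd m ∧
    Nat.card (MulAut (Matrix.ProjectiveSpecialLinearGroup (Fin 3) (ZMod 3))) = 32 * m := by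
  have h1 := Cfsg.Agent.S0813.result (F := ZMod 3) 3 1 le_rfl (by rw [ZMod.card]; rfl) 3 (by norm_num) (by norm_num)
  have h2 := Cfsg.Agent.ClassicalGeometry.PSL2Basic.card_PGL_mul (Fin 3) (ZMod 3)
  rw [Matrix.card_GL_field, Fin.prod_univ_three, ZMod.card] at h2
  norm_num at h2
  have h3 : Nat.card (Matrix.ProjGenLinGroup (Fin 3) (ZMod 3)) = 5616 := by omega
  rw [h1, h3, if_neg (by norm_num)]
  exact ⟨351, by decide, by norm_num⟩

theorem RR_le {G : Type*} [Group G] {r w d b : G} (h1 : b * r ^ 2 * b⁻¹ ∈ RR r w d) (h2 : b * (r * w) * b⁻¹ ∈ RR r w d)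
    (h3 : b * d * b⁻¹ ∈ RR r w d) : ∀ x ∈ RR r w d, b * x * b⁻¹ ∈ RR r w d := by
  have h4 : RR r w d ≤ (RR r w d).comap (MulAut.conj b).toMonoidHom := by
    conv_lhs => unfold RR
    rw [closure_le]
    rintro x (rfl | rfl | rfl)
    · exact h1
    · exact h2
    · exact h3
  exact fun x hx => h4 hx

/-- **the group side of `StHol`, part B** -/
theorem grpB : Cfsg.Agent.H663.Hol.StGrpB := by
  have hr : orderOf (lift r0 : MulAut (Matrix.ProjectiveSpecialLinearGroup (Fin 3) (ZMod 3))) = 8 := by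
    rw [orderOf_injective lift lift_injective, order_r0]
  have ww : (lift w0 : MulAut (Matrix.ProjectiveSpecialLinearGroup (Fin 3) (ZMod 3))) ^ 2 = 1 := by
    rw [← map_pow, w0_sq, map_one]
  have dd : (lift d0 : MulAut (Matrix.ProjectiveSpecialLinearGroup (Fin 3) (ZMod 3))) ^ 2 = 1 := by
    rw [← map_pow, d0_sq, map_one]
  have wr : (lift w0 : MulAut (Matrix.ProjectiveSpecialLinearGroup (Fin 3) (ZMod 3))) * lift r0 * (lift w0)⁻¹ =
      (lift r0)⁻¹ := by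
    rw [← map_inv, ← map_mul, ← map_mul, wr0, map_inv]
  have dr : (lift d0 : MulAut (Matrix.ProjectiveSpecialLinearGroup (Fin 3) (ZMod 3))) * lift r0 * (lift d0)⁻¹ =
      (lift r0) ^ 5 := by
    rw [← map_inv, ← map_mul, ← map_mul, dr0, map_pow]
  have wd : (lift w0 : MulAut (Matrix.ProjectiveSpecialLinearGroup (Fin 3) (ZMod 3))) * lift d0 =
      lift d0 * lift w0 := by
    rw [← map_mul, wd0, map_mul]
  have hc : (lift b0 : MulAut (Matrix.ProjectiveSpecialLinearGroup (Fin 3) (ZMod 3))) ^ 3 = 1 := by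
    rw [← map_pow, b_cube, map_one]
  have c1 : lift b0 * (lift r0 : MulAut (Matrix.ProjectiveSpecialLinearGroup (Fin 3) (ZMod 3))) ^ 2 * (lift b0)⁻¹ =
      lift d0 * (lift r0 * lift w0) := by
    rw [← map_inv, ← map_pow, ← map_mul, ← map_mul, b1, map_mul, map_mul]
  have c2 : lift b0 * ((lift r0 : MulAut (Matrix.ProjectiveSpecialLinearGroup (Fin 3) (ZMod 3))) * lift w0) *
      (lift b0)⁻¹ = lift d0 := by
    rw [← map_inv, ← map_mul, ← map_mul, ← map_mul, b2]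
  have c3 : lift b0 * (lift d0 : MulAut (Matrix.ProjectiveSpecialLinearGroup (Fin 3) (ZMod 3))) * (lift b0)⁻¹ =
      lift r0 * lift w0 * lift r0 ^ 2 := by
    rw [← map_inv, ← map_mul, ← map_mul, b3, map_mul, map_mul, map_pow]
  have e1 : (lift r0 : MulAut (Matrix.ProjectiveSpecialLinearGroup (Fin 3) (ZMod 3))) ^ 2 ∈
      RR (lift r0) (lift w0) (lift d0) := subset_closure (by simp)
  have e2 : (lift r0 : MulAut (Matrix.ProjectiveSpecialLinearGroup (Fin 3) (ZMod 3))) * lift w0 ∈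
      RR (lift r0) (lift w0) (lift d0) := subset_closure (by simp)
  have e3 : (lift d0 : MulAut (Matrix.ProjectiveSpecialLinearGroup (Fin 3) (ZMod 3))) ∈
      RR (lift r0) (lift w0) (lift d0) := subset_closure (by simp)
  refine ⟨lift r0, lift w0, lift d0, lift a0, lift b0, ⟨⟨hr, ww, dd, wr, dr, wd, card_closure hr ww dd wr dr wd⟩,
    ?_, ?_, ?_, card_aut⟩, ?_, ?_, ?_⟩
  · rw [← map_inv, ← map_mul, ← map_mul, ad0]
  · rw [← map_inv, ← map_pow, ← map_mul, ← map_mul, ar0]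
  · rw [← map_inv, ← map_mul, ← map_mul, aw0, map_mul, map_pow]
  · exact RR_le (by rw [c1]; exact mul_mem e3 e2) (by rw [c2]; exact e3) (by rw [c3]; exact mul_mem e2 e1)
  · intro x _
    rw [hc, one_mul, inv_one, mul_one]
  · refine ⟨_, e2, ?_⟩
    rw [c2]
    intro h
    -- `d = r w` implies that `r = d w` has order at most two
    have h1 : (lift r0 : MulAut (Matrix.ProjectiveSpecialLinearGroup (Fin 3) (ZMod 3))) = lift d0 * (lift w0)⁻¹ := by
      rw [h, mul_inv_cancel_right]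
    have h2 : (lift r0 : MulAut (Matrix.ProjectiveSpecialLinearGroup (Fin 3) (ZMod 3))) ^ 2 = 1 := by
      have h3 : Commute (lift d0 : MulAut (Matrix.ProjectiveSpecialLinearGroup (Fin 3) (ZMod 3))) (lift w0)⁻¹ :=
        (show Commute (lift d0) (lift w0) from wd.symm).inv_right
      rw [h1, h3.mul_pow, dd, inv_pow, ww, inv_one, mul_one]
    have h3 := orderOf_dvd_of_pow_eq_one h2
    rw [hr] at h3
    exact absurd h3 (by norm_num)

end Cfsg.Agent.H984.Hol
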